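import Cfsg.Agent.H589.BD.Defs
import Cfsg.Agent.H246.Dl.Defs

/-!
# Derived lengths of covers (for S4932, section 3 of the plan)

* `dS X n` : the derived series of a subgroup `X`, as subgroups of the ambient group;
* `OutAb p S` : `⁅R, R⁆ ≤ Inn S` for all `p`-subgroups `R` of `Aut S`;
* `OutPrime p S` : `p` does not divide `#Out S`;
* `NoCover p S` : no proper perfect central extension of `S` with kernel a `p`-group;
* `CovDl p k S` : the Sylow `p`-subgroups of every perfect central extension of `S` with kernel a `p`-group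
  have derived length at most `k`.
-/

set_option autoImplicit false

namespace Cfsg.Agent.H585.BD

open Cfsg Cfsg.Agent.H246.Dl Cfsg.Agent.H589.BD
open scoped commutatorElement

universe u v

section series

variable {G : Type*} [Group G]

/-- The derived series of `X`, as subgroups of `G`. -/
def dS (X : Subgroup G) : ℕ → Subgroup G
  | 0 => X
  | (n + 1) => ⁅dS X n, dS X n⁆

theorem dS_zero (X : Subgroup G) : dS X 0 = X := rfl

theorem dS_succ (X : Subgroup G) (n : ℕ) : dS X (n + 1) = ⁅dS X n, dS X n⁆ := rfl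

theorem dS_mono {X Y : Subgroup G} (h : X ≤ Y) (n : ℕ) : dS X n ≤ dS Y n := by
  induction n with
  | zero => exact h
  | succ n ih => exact Subgroup.commutator_mono ih ih

theorem dS_anti (X : Subgroup G) (n : ℕ) : dS X (n + 1) ≤ dS X n := by
  rw [dS_succ, Subgroup.commutator_le]
  intro a ha b hb
  exact mul_mem (mul_mem (mul_mem ha hb) (inv_mem ha)) (inv_mem hb)

theorem dS_map {H : Type*} [Group H] (f : G →* H) (X : Subgroup G) (n : ℕ) :
    (dS X n).map f = dS (X.map f) n := by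
  induction n with
  | zero => rfl
  | succ n ih => rw [dS_succ, dS_succ, Subgroup.map_commutator, ih]

theorem dS_top (n : ℕ) : dS (⊤ : Subgroup G) n = derivedSeries G n := by
  induction n with
  | zero => rfl
  | succ n ih => rw [dS_succ, ih]; rfl

theorem map_derivedSeries (X : Subgroup G) (n : ℕ) :
    (derivedSeries ↥X n).map X.subtype = dS X n := by
  rw [← dS_top, dS_map, ← MonoidHom.range_eq_map, Subgroup.range_subtype]

/-- The derived series in the group and in the subgroup. -/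
theorem derivedSeries_eq_bot_iff (X : Subgroup G) (n : ℕ) :
    derivedSeries ↥X n = ⊥ ↔ dS X n = ⊥ := by
  rw [← map_derivedSeries, Subgroup.map_eq_bot_iff_of_injective _ X.subtype_injective]

theorem dS_eq_bot_of_inj {H : Type*} [Group H] (f : G →* H) (hf : Function.Injective f) (X : Subgroup G)
    (n : ℕ) : dS X n = ⊥ ↔ dS (X.map f) n = ⊥ := by
  rw [← dS_map, Subgroup.map_eq_bot_iff_of_injective _ hf]

/-- Commuting subgroups. -/
theorem exists_mul {X Y : Subgroup G} (h : ∀ x ∈ X, ∀ y ∈ Y, x * y = y * x) {g : G} (hg : g ∈ X ⊔ Y) :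
    ∃ x ∈ X, ∃ y ∈ Y, g = x * y := by
  have hcomm : ∀ (a : ↥X) (b : ↥Y), Commute (X.subtype a) (Y.subtype b) := fun a b => h a a.2 b b.2
  have h1 : (MonoidHom.noncommCoprod X.subtype Y.subtype hcomm).range = X ⊔ Y := by
    rw [MonoidHom.noncommCoprod_range, Subgroup.range_subtype, Subgroup.range_subtype]
  rw [← h1] at hg
  obtain ⟨⟨a, b⟩, rfl⟩ := hg
  exact ⟨a, a.2, b, b.2, rfl⟩

theorem dS_sup {X Y : Subgroup G} (h : ∀ x ∈ X, ∀ y ∈ Y, x * y = y * x) (n : ℕ) :
    dS (X ⊔ Y) n ≤ dS X n ⊔ dS Y n := by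
  have hX : ∀ n, dS X n ≤ X := by
    intro n
    induction n with
    | zero => exact le_rfl
    | succ n ih => exact (dS_anti X n).trans ih
  have hY : ∀ n, dS Y n ≤ Y := by
    intro n
    induction n with
    | zero => exact le_rfl
    | succ n ih => exact (dS_anti Y n).trans ih
  induction n with
  | zero => exact le_rfl
  | succ n ih =>
    rw [dS_succ, Subgroup.commutator_le]
    intro a ha b hb
    have hc : ∀ x ∈ dS X n, ∀ y ∈ dS Y n, x * y = y * x := fun x hx y hy => h x (hX n hx) y (hY n hy)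
    obtain ⟨x1, hx1, y1, hy1, rfl⟩ := exists_mul hc (ih ha)
    obtain ⟨x2, hx2, y2, hy2, rfl⟩ := exists_mul hc (ih hb)
    have e : ⁅x1 * y1, x2 * y2⁆ = ⁅x1, x2⁆ * ⁅y1, y2⁆ := by
      have c12 := hc x1 hx1 y2 hy2
      have c21 := hc x2 hx2 y1 hy1
      have c11 := hc x1 hx1 y1 hy1
      have c22 := hc x2 hx2 y2 hy2
      have k1 : x1⁻¹ * y1⁻¹ = y1⁻¹ * x1⁻¹ := hc _ (inv_mem hx1) _ (inv_mem hy1)
      have k2 : x1⁻¹ * y2⁻¹ = y2⁻¹ * x1⁻¹ := hc _ (inv_mem hx1) _ (inv_mem hy2)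
      have k3 : x2⁻¹ * y1⁻¹ = y1⁻¹ * x2⁻¹ := hc _ (inv_mem hx2) _ (inv_mem hy1)
      have k4 : x2⁻¹ * y2⁻¹ = y2⁻¹ * x2⁻¹ := hc _ (inv_mem hx2) _ (inv_mem hy2)
      have k5 : x2⁻¹ * y1 = y1 * x2⁻¹ := hc _ (inv_mem hx2) _ hy1
      have k6 : x2⁻¹ * y2 = y2 * x2⁻¹ := hc _ (inv_mem hx2) _ hy2
      have k7 : x1⁻¹ * y2 = y2 * x1⁻¹ := hc _ (inv_mem hx1) _ hy2
      have k8 : x1⁻¹ * y1 = y1 * x1⁻¹ := hc _ (inv_mem hx1) _ hy1
      rw [commutatorElement_def, commutatorElement_def, commutatorElement_def, mul_inv_rev, mul_inv_rev]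
      calc x1 * y1 * (x2 * y2) * (y1⁻¹ * x1⁻¹) * (y2⁻¹ * x2⁻¹)
          = x1 * (y1 * x2) * y2 * (y1⁻¹ * x1⁻¹) * (y2⁻¹ * x2⁻¹) := by group
        _ = x1 * (x2 * y1) * y2 * (x1⁻¹ * y1⁻¹) * (x2⁻¹ * y2⁻¹) := by rw [c21, k1, k4]
        _ = x1 * x2 * (y1 * (y2 * x1⁻¹) * y1⁻¹) * (x2⁻¹ * y2⁻¹) := by group
        _ = x1 * x2 * (y1 * (x1⁻¹ * y2) * y1⁻¹) * (x2⁻¹ * y2⁻¹) := by rw [k7]
        _ = x1 * x2 * ((y1 * x1⁻¹) * y2 * y1⁻¹) * (x2⁻¹ * y2⁻¹) := by group
        _ = x1 * x2 * ((x1⁻¹ * y1) * y2 * y1⁻¹) * (x2⁻¹ * y2⁻¹) := by rw [k8]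
        _ = x1 * x2 * x1⁻¹ * y1 * y2 * (y1⁻¹ * x2⁻¹) * y2⁻¹ := by group
        _ = x1 * x2 * x1⁻¹ * y1 * y2 * (x2⁻¹ * y1⁻¹) * y2⁻¹ := by rw [k3]
        _ = x1 * x2 * x1⁻¹ * y1 * (y2 * x2⁻¹) * y1⁻¹ * y2⁻¹ := by group
        _ = x1 * x2 * x1⁻¹ * y1 * (x2⁻¹ * y2) * y1⁻¹ * y2⁻¹ := by rw [k6]
        _ = x1 * x2 * x1⁻¹ * (y1 * x2⁻¹) * y2 * y1⁻¹ * y2⁻¹ := by group
        _ = x1 * x2 * x1⁻¹ * (x2⁻¹ * y1) * y2 * y1⁻¹ * y2⁻¹ := by rw [k5]
        _ = x1 * x2 * x1⁻¹ * x2⁻¹ * (y1 * y2 * y1⁻¹ * y2⁻¹) := by group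
    rw [e]
    exact mul_mem (Subgroup.mem_sup_left (Subgroup.commutator_mem_commutator hx1 hx2))
      (Subgroup.mem_sup_right (Subgroup.commutator_mem_commutator hy1 hy2))

/-- `p`-subgroups have derived length at most that of the Sylow subgroups. -/
theorem dS_of_dlLe {p d : ℕ} (h : DlLe p d G) {X : Subgroup G} (hX : IsPGroup p X) : dS X d = ⊥ := by
  obtain ⟨P, hP⟩ := hX.exists_le_sylow
  have h1 := (derivedSeries_eq_bot_iff (P : Subgroup G) d).1 (h P)
  exact le_bot_iff.1 ((dS_mono hP d).trans h1.le)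

theorem dlLe_iff {p d : ℕ} : DlLe p d G ↔ ∀ P : Sylow p G, dS (P : Subgroup G) d = ⊥ :=
  forall_congr' fun P => derivedSeries_eq_bot_iff (P : Subgroup G) d

end series

section defs

variable (p : ℕ) (S : Type u) [Group S]

/-- Commutators of `p`-groups of automorphisms are inner. -/
def OutAb : Prop := ∀ R : Subgroup (MulAut S), IsPGroup p R → ⁅R, R⁆ ≤ Inn S

/-- `p` does not divide `#Out S`. -/
def OutPrime : Prop := ¬ p ∣ Nat.card (Out S)

/-- `f : Y → S` is a perfect central extension with kernel a `p`-group. -/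
structure PExt {Y : Type u} [Group Y] (f : Y →* S) : Prop where
  surj : Function.Surjective f
  cent : ∀ y, f y = 1 → y ∈ Subgroup.center Y
  perf : commutator Y = ⊤
  pgrp : IsPGroup p f.ker

/-- No proper perfect central extension with kernel a `p`-group. -/
def NoCover : Prop := ∀ (Y : Type u) [Group Y] [Finite Y] (f : Y →* S), PExt p S f → Function.Injective f

/-- Derived length at most `k` for the Sylow subgroups of all `p`-covers. -/
def CovDl (k : ℕ) : Prop := ∀ (Y : Type u) [Group Y] [Finite Y] (f : Y →* S), PExt p S f → DlLe p k Y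

end defs

variable {p : ℕ} {S : Type u} [Group S]

theorem PExt.stem {Y : Type u} [Group Y] {f : Y →* S} (h : PExt p S f) : IsStemExtension f :=
  ⟨h.surj, fun y hy => h.cent y (f.mem_ker.1 hy), by rw [h.perf]; exact le_top⟩

theorem CovDl.mono {k l : ℕ} (h : CovDl p S k) (hkl : k ≤ l) : CovDl p S l :=
  fun Y _ _ f hf => (h Y f hf).mono hkl

/-- A Schur multiplier of order prime to `p`. -/
theorem noCover_of_mult [hp : Fact p.Prime] {A : Type v} [CommGroup A] [Finite A] (h : HasSchurMultiplier S A)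
    (hA : ¬ p ∣ Nat.card A) : NoCover p S := by
  intro Y _ _ f hf
  obtain ⟨π, hπ⟩ := h.2 Y f hf.stem
  rw [injective_iff_map_eq_one]
  intro y hy
  obtain ⟨a, ha⟩ := hπ ⟨y, hy⟩
  obtain ⟨k, hk⟩ := hf.pgrp ⟨y, hy⟩
  have h1 : orderOf (⟨y, hy⟩ : f.ker) ∣ Nat.card A := by
    rw [← ha]
    exact (orderOf_map_dvd π a).trans (orderOf_dvd_natCard a)
  obtain ⟨j, -, hj⟩ := (Nat.dvd_prime_pow hp.out).1 (orderOf_dvd_of_pow_eq_one hk)
  rcases Nat.eq_zero_or_pos j with h0 | h0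
  · rw [h0, pow_zero, orderOf_eq_one_iff] at hj
    exact congrArg Subtype.val hj
  · exact absurd ((dvd_pow_self p h0.ne').trans (hj ▸ h1)) hA

/-- The order of a perfect central extension. -/
theorem card_dvd_of_mult {A : Type v} [CommGroup A] [Finite A] (h : HasSchurMultiplier S A)
    {Y : Type u} [Group Y] [Finite Y] {f : Y →* S} (hf : PExt p S f) :
    Nat.card Y ∣ Nat.card S * Nat.card A := by
  obtain ⟨π, hπ⟩ := h.2 Y f hf.stem
  have h1 : Nat.card f.ker ∣ Nat.card A := Subgroup.card_dvd_of_surjective π hπ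
  have h2 : Nat.card Y = Nat.card S * Nat.card f.ker := by
    rw [Subgroup.card_eq_card_quotient_mul_card_subgroup f.ker,
      Nat.card_congr (QuotientGroup.quotientKerEquivOfSurjective f hf.surj).toEquiv]
  rw [h2]
  exact mul_dvd_mul_left _ h1

theorem covDl_of_noCover [Finite S] [Fact p.Prime] {k : ℕ} (h : NoCover p S) (hd : DlLe p k S) : CovDl p S k := by
  intro Y _ _ f hf
  exact DlLe.of_equiv (MulEquiv.ofBijective f ⟨h Y f hf, hf.surj⟩) hd

/-- Abelian Sylow subgroups. -/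
theorem covDl_of_comm (h : ∀ X : Subgroup S, IsPGroup p X → ∀ x ∈ X, ∀ y ∈ X, x * y = y * x) :
    CovDl p S 2 := by
  intro Y _ _ f hf
  rw [dlLe_iff]
  intro P
  have h1 : dS (P : Subgroup Y) 1 ≤ f.ker := by
    rw [dS_succ, Subgroup.commutator_le]
    intro a ha b hb
    rw [MonoidHom.mem_ker, map_commutatorElement, commutatorElement_eq_one_iff_mul_comm]
    exact h _ (P.isPGroup'.map f) _ (Subgroup.mem_map_of_mem f ha) _ (Subgroup.mem_map_of_mem f hb)
  rw [dS_succ, eq_bot_iff, Subgroup.commutator_le]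
  intro a ha b hb
  rw [Subgroup.mem_bot, commutatorElement_eq_one_iff_mul_comm]
  exact (Subgroup.mem_center_iff.1 (hf.cent a (h1 ha)) b).symm

/-- The Sylow subgroups of `S` have a cyclic subgroup `C` with `P'` mapping into `C`. -/
theorem covDl_of_cyclic (h : ∀ X : Subgroup S, IsPGroup p X → ∃ c : S, ⁅X, X⁆ ≤ Subgroup.zpowers c) :
    CovDl p S 2 := by
  intro Y _ _ f hf
  rw [dlLe_iff]
  intro P
  obtain ⟨c, hc⟩ := h _ (P.isPGroup'.map f)
  obtain ⟨y, rfl⟩ := hf.surj c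
  rw [dS_succ, eq_bot_iff, Subgroup.commutator_le]
  have key : ∀ a ∈ dS (P : Subgroup Y) 1, ∃ n : ℤ, ∃ z ∈ Subgroup.center Y, a = y ^ n * z := by
    intro a ha
    have h1 : f a ∈ Subgroup.zpowers (f y) := by
      apply hc
      rw [← Subgroup.map_commutator]
      exact Subgroup.mem_map_of_mem f ha
    obtain ⟨n, hn⟩ := h1
    refine ⟨n, (y ^ n)⁻¹ * a, hf.cent _ ?_, by group⟩
    have hn' : f y ^ n = f a := hn
    rw [map_mul, map_inv, map_zpow, hn', inv_mul_cancel]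
  intro a ha b hb
  obtain ⟨m, z, hz, rfl⟩ := key a ha
  obtain ⟨n, w, hw, rfl⟩ := key b hb
  rw [Subgroup.mem_bot, commutatorElement_eq_one_iff_mul_comm]
  have h1 := Subgroup.mem_center_iff.1 hz
  have h2 := Subgroup.mem_center_iff.1 hw
  calc y ^ m * z * (y ^ n * w) = y ^ m * (z * y ^ n) * w := by group
    _ = y ^ m * (y ^ n * z) * w := by rw [h1 (y ^ n)]
    _ = y ^ (m + n) * (z * w) := by rw [zpow_add]; group
    _ = y ^ (n + m) * (w * z) := by rw [add_comm, h2 z]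
    _ = y ^ n * (y ^ m * w) * z := by rw [zpow_add]; group
    _ = y ^ n * (w * y ^ m) * z := by rw [h2 (y ^ m)]
    _ = y ^ n * w * (y ^ m * z) := by group

end Cfsg.Agent.H585.BD
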