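import Cfsg.Agent.H585.BD.OutCrit
import Cfsg.Agent.H234.OutFamTw

/-!
# `OutAb p S` for `²E₆(q)`
-/

set_option autoImplicit false
set_option linter.unusedSectionVars false

namespace Cfsg.Agent.H585.BD

open CoxeterSystem Cfsg.Agent.ChevalleyStructure.CoxeterGeom Cfsg.Agent.Tits.Roots Cfsg.Agent.Tits.Core
  Cfsg.Agent.Tits.Exchange Cfsg.Agent.Nodes.Reps Cfsg.Agent.Nodes.BNOf Cfsg.Agent.Nodes.StabComb
  Cfsg.Agent.Nodes.Bruhat Cfsg.Agent.Nodes.OppDec Cfsg.Agent.Nodes.RGDTwGen Cfsg.Agent.Nodes.RGDChev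
  Cfsg.Agent.Nodes.RGDFold Cfsg.Agent.Nodes.RGDFoldSL
open Cfsg.Agent.KFacts.RgdOpp Cfsg.Agent.KFacts.RgdAut Cfsg.Agent.KFacts.RgdDiag Cfsg.Agent.KFacts.RgdRigid
  Cfsg.Agent.KFacts.RgdField Cfsg.Agent.KFacts.RgdTau Cfsg.Agent.KFacts.RgdNodes
open Cfsg.Lie Cfsg.Agent.ChevalleyStructure Cfsg.Agent.ChevalleyStructure.Elts Cfsg.Agent.ChevStructure.FieldMap
open Cfsg.Agent.ChevalleyStructure.SL2Hom (up lo)
open Cfsg.Agent.KFacts.TwESix.NodeCoord Cfsg.Agent.KFacts.TwESix.Out Cfsg.Agent.KFacts.TwESix.OutTwo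
open Cfsg.Agent.Nodes.RGDTwE6 Cfsg.Agent.Nodes.RGDTwNode.E6
open Cfsg.Agent.ChevalleyStructure.TwE6Basic (hE6 single_mem pair_mem twisted_le_iff exists_frob twisted_le_fix)
open Cfsg.Agent.CpAut.RgdTwE6 (st rs st_up ntau_st ntau_of_ftau tau_phi coe_up)
open Cfsg Cfsg.Agent.H234.OutGood

universe u v

variable {p : ℕ} [hp : Fact p.Prime]

theorem outAb_twistedE6' {K : Type u} [Field K] [Fintype K] {q : ℕ} (hp2 : p ≠ 2) (hq : IsPrimePow q)
    (hK : Fintype.card K = q ^ 2) (r : ℕ) [Fact r.Prime] [CharP K r] : OutAb p ↥(twistedE6 K q) := by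
  obtain ⟨φ, hφ, hqq⟩ := exists_frob hq hK
  let cs : CoxeterSystem CoxeterMatrix.F₄ CoxeterMatrix.F₄.Group := CoxeterMatrix.F₄.toCoxeterSystem
  have hW : Finite CoxeterMatrix.F₄.Group :=
    Cfsg.Agent.Nodes.RGDFold.finite_W (hp := Cfsg.Agent.Nodes.RGDTwE6.hp) cs
      Cfsg.Agent.Nodes.RGDTwE6.isCartan Cfsg.Agent.Nodes.RGDTwE6.foldData
  have R := Cfsg.Agent.Nodes.RGDTwE6.rgd cs hφ hqq r
  have hG1 := G1_top cs hφ hqq
  have hC : IsCyclic (K ≃+* K) := LieRecognition.FieldSemilinear.isCyclic_ringAut K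
  have hCf : Finite (K ≃+* K) := Finite.of_injective (fun f : K ≃+* K => (f : K → K)) DFunLike.coe_injective
  have hfin2 : Finite (MulAut ↥(twistedE6 K q)) :=
    Finite.of_injective (fun f : MulAut ↥(twistedE6 K q) => (f : ↥(twistedE6 K q) → ↥(twistedE6 K q)))
      DFunLike.coe_injective
  obtain ⟨f, hr, hf⟩ := FiniteField.card K r
  have hcard := Cfsg.Agent.H166.OutTwESix.card_out_eq hφ hqq cs r f hq hK hf
  have hF : Nat.card (K ≃+* K) = f := Lib.FieldAutCard.card_ringAut f.pos hf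
  rw [← hF] at hcard
  refine outAb_of_rel (FTau hφ hqq) (fun α => ?_) (fun β τ β' τ' S S' => S.mul hφ hqq S') (fun g τ S => ?_)
    (fun τ => ?_) hcard (not_sq_dvd_of_dvd hp2 ((Nat.gcd_dvd_left _ _).trans (by norm_num)))
  · obtain ⟨g, σ, D⟩ := Cfsg.Agent.H69.OutCount.exists_diag_conj R hG1 α
    have hσ : σ = 1 := by
      apply perm_F4 σ (D.matrix R)
      intro h3
      have h4 := Diag.card_eq D 0
      rw [h3] at h4
      exact card_ne hφ hqq hK hq.one_lt h4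
    rw [hσ] at D
    obtain ⟨τ, hτ⟩ := exists_ftau hφ hqq cs r D
    exact ⟨g, τ, hτ⟩
  · have h1 := Cfsg.Agent.H69.OutCount.mem_T_of_diag R hG1 S.diag
    exact FTau.unique hφ hqq S (ftau_conj hφ hqq cs r h1)
  · have S := ntau_st hφ hqq τ cs r
    exact ⟨st q τ, S.diag, fun i t ht => congrArg Subtype.val (S.char i t ht)⟩

theorem outAb_twistedE6 {K : Type v} [Group K] (hp2 : p ≠ 2) (h : Lie.Iso2E6 K) : OutAb p K := by
  obtain ⟨F, _, _, q, hq, hF, ⟨e⟩⟩ := h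
  obtain ⟨r, hchar⟩ := CharP.exists F
  obtain ⟨f, hr, hf⟩ := FiniteField.card F r
  have hrf : Fact r.Prime := ⟨hr⟩
  exact OutAb.congr e (outAb_twistedE6' hp2 hq hF r)

end Cfsg.Agent.H585.BD
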