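import Cfsg.Agent.H585.BD.Dl

/-!
# Tame simple groups (S4932, section 3 of the plan)

Criteria for `Tame p S` (`hZ : Subgroup.center S = ⊥`, see `center_simple`):
* `tame_two` : `CovDl p S 2` and `OutAb p S`;
* `tame_three` : `CovDl p S 3` and `OutPrime p S`;
* `tame_over` : `NoCover p S`, `OutAb p S` and `DlLe p 3 A` for all `A` over `S`.
-/

set_option autoImplicit false
set_option linter.style.haveILetI false

namespace Cfsg.Agent.H585.BD

open Cfsg Cfsg.Agent.H246.Dl Cfsg.Agent.H589.BD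
open scoped commutatorElement

universe u v

theorem dS_add {G : Type*} [Group G] (X : Subgroup G) (n m : ℕ) : dS X (n + m) = dS (dS X n) m := by
  induction m with
  | zero => rfl
  | succ m ih => rw [← add_assoc, dS_succ, dS_succ, ih]

variable {p : ℕ} {S : Type u} [Group S]

/-- `A` embeds in `Aut S` with `N` over `Inn S`. -/
theorem exists_psi {A : Type u} [Group A] {N : Subgroup A} (h : Over S N) :
    ∃ ψ : A →* MulAut S, Function.Injective ψ ∧ ∀ a, ψ a ∈ Inn S ↔ a ∈ N := by
  obtain ⟨e⟩ := h.iso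
  haveI := h.normal
  let ψ : A →* MulAut S := (MulAut.congr e).toMonoidHom.comp MulAut.conjNormal
  have hψ : ∀ a s, ψ a s = e (MulAut.conjNormal a (e.symm s)) := fun a s => rfl
  refine ⟨ψ, ?_, ?_⟩
  · rw [injective_iff_map_eq_one]
    intro a ha
    have h1 : a ∈ Subgroup.centralizer (N : Set A) := by
      rw [Subgroup.mem_centralizer_iff]
      intro n hn
      have h2 : ψ a (e ⟨n, hn⟩) = e ⟨n, hn⟩ := by rw [ha]; rfl
      rw [hψ, e.symm_apply_apply] at h2
      have h3 := congrArg Subtype.val (e.injective h2)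
      rw [MulAut.conjNormal_apply] at h3
      have h4 : a * n * a⁻¹ = n := h3
      rw [mul_inv_eq_iff_eq_mul] at h4
      exact h4.symm
    rw [h.cent, Subgroup.mem_bot] at h1
    exact h1
  · intro a
    constructor
    · rintro ⟨s, hs⟩
      have h1 : ((e.symm s : ↥N) : A)⁻¹ * a ∈ Subgroup.centralizer (N : Set A) := by
        rw [Subgroup.mem_centralizer_iff]
        intro n hn
        have h2 : (MulAut.conj s) (e ⟨n, hn⟩) = ψ a (e ⟨n, hn⟩) := by rw [hs]
        rw [hψ, e.symm_apply_apply, MulAut.conj_apply] at h2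
        have h3 : s * e ⟨n, hn⟩ * s⁻¹ = e (e.symm s * ⟨n, hn⟩ * (e.symm s)⁻¹) := by
          rw [map_mul, map_mul, map_inv, e.apply_symm_apply]
        rw [h3] at h2
        have h4 := congrArg Subtype.val (e.injective h2)
        rw [MulAut.conjNormal_apply] at h4
        have h5 : (e.symm s : A) * n * (e.symm s : A)⁻¹ = a * n * a⁻¹ := h4
        calc n * ((e.symm s : A)⁻¹ * a)
            = (e.symm s : A)⁻¹ * ((e.symm s : A) * n * (e.symm s : A)⁻¹) * a := by group
          _ = (e.symm s : A)⁻¹ * (a * n * a⁻¹) * a := by rw [h5]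
          _ = (e.symm s : A)⁻¹ * a * n := by group
      rw [h.cent, Subgroup.mem_bot, inv_mul_eq_one] at h1
      rw [← h1]
      exact (e.symm s).2
    · intro ha
      refine ⟨e ⟨a, ha⟩, ?_⟩
      ext s
      rw [hψ, MulAut.conj_apply]
      obtain ⟨n, rfl⟩ := e.surjective s
      rw [e.symm_apply_apply, ← map_inv, ← map_mul, ← map_mul]
      congr 1

theorem OutAb.over (h : OutAb p S) {A : Type u} [Group A] {N : Subgroup A} (hN : Over S N) {R : Subgroup A}
    (hR : IsPGroup p R) : ⁅R, R⁆ ≤ N := by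
  obtain ⟨ψ, -, h2⟩ := exists_psi hN
  intro a ha
  rw [← h2]
  apply h (R.map ψ) (hR.map ψ)
  rw [← Subgroup.map_commutator]
  exact Subgroup.mem_map_of_mem ψ ha

theorem OutPrime.over [hp : Fact p.Prime] (h : OutPrime p S) {A : Type u} [Group A] {N : Subgroup A}
    (hN : Over S N) {R : Subgroup A} (hR : IsPGroup p R) : R ≤ N := by
  obtain ⟨ψ, -, h2⟩ := exists_psi hN
  intro a ha
  rw [← h2, ← QuotientGroup.eq_one_iff]
  have h3 : orderOf ((ψ a : MulAut S) : Out S) ∣ Nat.card (Out S) := orderOf_dvd_natCard _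
  obtain ⟨k, hk⟩ := hR ⟨a, ha⟩
  have hk' : a ^ p ^ k = 1 := by simpa using congrArg Subtype.val hk
  have h4 : ((ψ a : MulAut S) : Out S) ^ p ^ k = 1 := by
    rw [← QuotientGroup.mk_pow, ← map_pow, hk', map_one, QuotientGroup.mk_one]
  obtain ⟨j, -, hj⟩ := (Nat.dvd_prime_pow hp.out).1 (orderOf_dvd_of_pow_eq_one h4)
  rcases Nat.eq_zero_or_pos j with h0 | h0
  · rw [h0, pow_zero, orderOf_eq_one_iff] at hj
    exact hj
  · exact absurd ((dvd_pow_self p h0.ne').trans (hj ▸ h3)) h

/-- A Sylow `p`-version of `OutAb`: only the Sylow `p`-subgroups of `Aut S` matter. -/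
theorem outAb_of_hom {B : Type v} [Group B] (f : MulAut S →* B) (hf : ∀ a, f a = 1 → a ∈ Inn S)
    (h : ∀ R : Subgroup B, IsPGroup p R → ∀ x ∈ R, ∀ y ∈ R, x * y = y * x) : OutAb p S := by
  intro R hR
  rw [Subgroup.commutator_le]
  intro a ha b hb
  apply hf
  rw [map_commutatorElement, commutatorElement_eq_one_iff_mul_comm]
  exact h _ (hR.map f) _ (Subgroup.mem_map_of_mem f ha) _ (Subgroup.mem_map_of_mem f hb)

/-- Abelian outer automorphism groups. -/
theorem outAb_of_comm (h : ∀ x y : Out S, x * y = y * x) : OutAb p S :=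
  outAb_of_hom (QuotientGroup.mk' (Inn S)) (fun a ha => (QuotientGroup.eq_one_iff a).1 ha)
    (fun _ _ x _ y _ => h x y)

/-- Outer automorphism groups of order prime to `p`. -/
theorem OutPrime.outAb [hp : Fact p.Prime] (h : OutPrime p S) : OutAb p S := by
  refine outAb_of_hom (QuotientGroup.mk' (Inn S)) (fun a ha => (QuotientGroup.eq_one_iff a).1 ha) ?_
  intro R hR x hx y hy
  have h1 : x = 1 := by
    obtain ⟨k, hk⟩ := hR ⟨x, hx⟩
    have hk' : x ^ p ^ k = 1 := by simpa using congrArg Subtype.val hk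
    obtain ⟨j, -, hj⟩ := (Nat.dvd_prime_pow hp.out).1 (orderOf_dvd_of_pow_eq_one hk')
    rcases Nat.eq_zero_or_pos j with h0 | h0
    · rw [h0, pow_zero, orderOf_eq_one_iff] at hj
      exact hj
    · exact absurd ((dvd_pow_self p h0.ne').trans (hj ▸ orderOf_dvd_natCard x)) h
  rw [h1, one_mul, mul_one]

/-- Small outer automorphism groups: `p ^ 3` does not divide `#Out S`. -/
theorem outAb_of_card [hp : Fact p.Prime] [Finite (Out S)] (h : ¬ p ^ 3 ∣ Nat.card (Out S)) : OutAb p S := by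
  refine outAb_of_hom (QuotientGroup.mk' (Inn S)) (fun a ha => (QuotientGroup.eq_one_iff a).1 ha) ?_
  intro R hR x hx y hy
  obtain ⟨n, hn⟩ := IsPGroup.iff_card.1 hR
  have h1 : n < 3 := by
    by_contra hcon
    push Not at hcon
    exact h (((pow_dvd_pow p hcon).trans (hn ▸ dvd_rfl)).trans (Subgroup.card_subgroup_dvd_card R))
  have h2 : ∀ a b : ↥R, a * b = b * a := by
    have h3 : n = 0 ∨ n = 1 ∨ n = 2 := by omega
    rcases h3 with rfl | rfl | rfl
    · intro a b
      rw [pow_zero] at hn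
      haveI := (Nat.card_eq_one_iff_unique.1 hn).1
      exact Subsingleton.elim _ _
    · rw [pow_one] at hn
      haveI := isCyclic_of_prime_card hn
      intro a b
      exact (IsCyclic.isMulCommutative (α := ↥R)).is_comm.comm a b
    · intro a b
      exact (IsPGroup.isMulCommutative_of_card_eq_prime_sq hn).is_comm.comm a b
  exact congrArg Subtype.val (h2 ⟨x, hx⟩ ⟨y, hy⟩)

section core

variable {G : Type u} [Group G] {L Q : Subgroup G}

theorem comp_comm (h : Comp p S L Q) {l q : G} (hl : l ∈ L) (hq : q ∈ Q) : l * q = q * l :=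
  Subgroup.mem_centralizer_iff.1 (h.le hq) l hl

theorem comp_normC (h : Comp p S L Q) : (Subgroup.centralizer (L : Set G)).Normal := by
  haveI := h.normL
  infer_instance

/-- `L ∩ C_G(L) ≤ Q`. -/
theorem comp_inf_cent (hZ : Subgroup.center S = ⊥) (h : Comp p S L Q) {x : G} (hx : x ∈ L)
    (hx' : x ∈ Subgroup.centralizer (L : Set G)) : x ∈ Q := by
  obtain ⟨f, hf, hk⟩ := h.iso
  rw [← hk ⟨x, hx⟩, ← Subgroup.mem_bot, ← hZ, Subgroup.mem_center_iff]
  intro s
  obtain ⟨y, rfl⟩ := hf s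
  rw [← map_mul, ← map_mul]
  congr 1
  exact Subtype.ext (Subgroup.mem_centralizer_iff.1 hx' y y.2)

/-- The group over `S`. -/
theorem comp_over (hZ : Subgroup.center S = ⊥) (h : Comp p S L Q) [(Subgroup.centralizer (L : Set G)).Normal] :
    Over S (L.map (QuotientGroup.mk' (Subgroup.centralizer (L : Set G)))) := by
  obtain ⟨f, hf, hk⟩ := h.iso
  haveI := h.normL
  set C := Subgroup.centralizer (L : Set G) with hC
  refine ⟨h.normL.map _ (QuotientGroup.mk'_surjective C), ?_, ?_⟩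
  · let g : ↥L →* G ⧸ C := (QuotientGroup.mk' C).comp L.subtype
    have h1 : g.ker = f.ker := by
      ext x
      rw [MonoidHom.mem_ker, MonoidHom.mem_ker, hk]
      refine (QuotientGroup.eq_one_iff (x : G)).trans ⟨fun h1 => comp_inf_cent hZ h x.2 h1, fun h1 => h.le h1⟩
    have h2 : g.range = L.map (QuotientGroup.mk' C) := by
      rw [MonoidHom.range_comp, Subgroup.range_subtype]
    exact ⟨((MulEquiv.subgroupCongr h2).symm.trans
      ((QuotientGroup.quotientKerEquivRange g).symm.trans (QuotientGroup.quotientMulEquivOfEq h1))).trans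
        (QuotientGroup.quotientKerEquivOfSurjective f hf)⟩
  · rw [eq_bot_iff]
    intro a ha
    obtain ⟨g, rfl⟩ := QuotientGroup.mk'_surjective C a
    rw [Subgroup.mem_bot]
    refine (QuotientGroup.eq_one_iff g).2 ?_
    let D : Subgroup G := (Subgroup.centralizer ((L.map (QuotientGroup.mk' C) : Subgroup (G ⧸ C)) : Set (G ⧸ C))).comap
      (QuotientGroup.mk' C)
    have hg : g ∈ D := ha
    have hCL : ⁅D, L⁆ ≤ C := by
      rw [Subgroup.commutator_le]
      intro c hc l hl
      rw [← QuotientGroup.eq_one_iff]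
      have h1 := Subgroup.mem_centralizer_iff.1 hc _ (Subgroup.mem_map_of_mem _ hl)
      change QuotientGroup.mk' C ⁅c, l⁆ = 1
      rw [map_commutatorElement, commutatorElement_eq_one_iff_mul_comm]
      exact h1.symm
    have h2 : ⁅⁅L, D⁆, L⁆ = ⊥ := by
      rw [eq_bot_iff, Subgroup.commutator_le]
      intro c hc l hl
      rw [Subgroup.mem_bot, commutatorElement_eq_one_iff_mul_comm]
      rw [Subgroup.commutator_comm] at hc
      exact (Subgroup.mem_centralizer_iff.1 (hCL hc) l hl).symm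
    have h3 : ⁅⁅D, L⁆, L⁆ = ⊥ := by rw [Subgroup.commutator_comm D L]; exact h2
    have h4 : ⁅⁅L, L⁆, D⁆ = ⊥ := Subgroup.commutator_commutator_eq_bot_of_rotate h2 h3
    rw [h.perf] at h4
    rw [hC, Subgroup.mem_centralizer_iff]
    intro l hl
    have h5 : ⁅l, g⁆ ∈ ⁅L, D⁆ := Subgroup.commutator_mem_commutator hl hg
    rw [h4, Subgroup.mem_bot, commutatorElement_eq_one_iff_mul_comm] at h5
    exact h5

theorem comp_Q_le [Finite G] [Fact p.Prime] (h : Comp p S L Q) (P : Sylow p G) : Q ≤ (P : Subgroup G) := by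
  haveI := h.normQ
  obtain ⟨P0, hP0⟩ := h.pgrp.exists_le_sylow
  obtain ⟨g, hg⟩ := MulAction.exists_smul_eq G P0 P
  intro q hq
  have h1 : g⁻¹ * q * g ∈ (P0 : Subgroup G) := by
    have := hP0 (h.normQ.conj_mem q hq g⁻¹)
    simpa using this
  rw [← hg]
  have h3 : q = g * (g⁻¹ * q * g) * g⁻¹ := by group
  rw [h3]
  exact Subgroup.smul_mem_pointwise_smul (g⁻¹ * q * g) (MulAut.conj g) (P0 : Subgroup G) h1

/-- The `p`-elements of `L C_G(L)` are in `L Q`. -/
theorem comp_pelt [hp : Fact p.Prime] (h : Comp p S L Q) {x : G}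
    (hx : x ∈ L ⊔ Subgroup.centralizer (L : Set G)) {k : ℕ} (hk : x ^ p ^ k = 1) : x ∈ L ⊔ Q := by
  haveI := h.normL
  haveI := h.normQ
  set C := Subgroup.centralizer (L : Set G) with hC
  haveI hN : (L ⊔ Q).Normal := inferInstance
  obtain ⟨l, hl, c, hc, rfl⟩ := exists_mul
    (fun a ha b hb => Subgroup.mem_centralizer_iff.1 hb a ha) hx
  have h1 : c ^ Q.relIndex C ∈ Q := by
    have h2 := Subgroup.pow_index_mem (Q.subgroupOf C) (⟨c, hc⟩ : ↥C)
    rw [Subgroup.mem_subgroupOf] at h2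
    exact h2
  have h3 : ((c : G) : G ⧸ (L ⊔ Q)) ^ Q.relIndex C = 1 := by
    rw [← QuotientGroup.mk_pow]
    exact (QuotientGroup.eq_one_iff _).2 (Subgroup.mem_sup_right h1)
  have h4 : ((c : G) : G ⧸ (L ⊔ Q)) = ((l * c : G) : G ⧸ (L ⊔ Q)) := by
    rw [QuotientGroup.mk_mul, (QuotientGroup.eq_one_iff l).2 (Subgroup.mem_sup_left hl), one_mul]
  have h5 : ((c : G) : G ⧸ (L ⊔ Q)) ^ p ^ k = 1 := by
    rw [h4, ← QuotientGroup.mk_pow, hk, QuotientGroup.mk_one]
  have h6 : ((c : G) : G ⧸ (L ⊔ Q)) = 1 := by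
    have h7 : Nat.Coprime (Q.relIndex C) (p ^ k) :=
      (Nat.Coprime.pow_left k ((Nat.Prime.coprime_iff_not_dvd hp.out).2 h.idx)).symm
    have h8 : orderOf ((c : G) : G ⧸ (L ⊔ Q)) ∣ Nat.gcd (Q.relIndex C) (p ^ k) :=
      Nat.dvd_gcd (orderOf_dvd_of_pow_eq_one h3) (orderOf_dvd_of_pow_eq_one h5)
    rw [h7.gcd_eq_one, Nat.dvd_one, orderOf_eq_one_iff] at h8
    exact h8
  rw [h4] at h6
  exact (QuotientGroup.eq_one_iff _).1 h6

/-- The Dedekind step. -/
theorem comp_inf_le [Finite G] [Fact p.Prime] (h : Comp p S L Q) (P : Sylow p G) {X : Subgroup G}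
    (hX : X ≤ (P : Subgroup G)) (hL : X ≤ L ⊔ Subgroup.centralizer (L : Set G)) :
    X ≤ ((P : Subgroup G) ⊓ L) ⊔ Q := by
  intro x hx
  obtain ⟨k, hk⟩ := P.isPGroup' ⟨x, hX hx⟩
  have hk' : x ^ p ^ k = 1 := by simpa using congrArg Subtype.val hk
  obtain ⟨l, hl, q, hq, rfl⟩ := exists_mul (fun a ha b hb => comp_comm h ha hb) (comp_pelt h (hL hx) hk')
  refine mul_mem (Subgroup.mem_sup_left ⟨?_, hl⟩) (Subgroup.mem_sup_right hq)
  have h1 := mul_mem (hX hx) (inv_mem (comp_Q_le h P hq))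
  rwa [mul_inv_cancel_right] at h1

theorem comp_pext (h : Comp p S L Q) : ∃ f : ↥L →* S, PExt p S f := by
  obtain ⟨f, hf, hk⟩ := h.iso
  refine ⟨f, hf, ?_, ?_, ?_⟩
  · intro y hy
    rw [Subgroup.mem_center_iff]
    intro z
    exact Subtype.ext (comp_comm h z.2 ((hk y).1 hy))
  · have h1 : (commutator ↥L).map L.subtype = L := by
      rw [commutator_def, Subgroup.map_commutator, ← MonoidHom.range_eq_map, Subgroup.range_subtype, h.perf]
    rw [eq_top_iff]
    intro y _
    have h2 : (y : G) ∈ (commutator ↥L).map L.subtype := by rw [h1]; exact y.2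
    obtain ⟨z, hz, hzy⟩ := h2
    rwa [← Subtype.ext hzy]
  · intro y
    obtain ⟨k, hk'⟩ := h.pgrp ⟨((y : ↥L) : G), (hk y).1 y.2⟩
    exact ⟨k, by
      apply Subtype.ext
      apply Subtype.ext
      simpa using congrArg Subtype.val hk'⟩

theorem comp_dS_inf [Finite G] [Fact p.Prime] (h : Comp p S L Q) {k : ℕ} (hk : CovDl p S k) (P : Sylow p G) :
    dS ((P : Subgroup G) ⊓ L) k = ⊥ := by
  obtain ⟨f, hf⟩ := comp_pext h
  have h1 : IsPGroup p ((P : Subgroup G).subgroupOf L) :=
    P.isPGroup'.comap_of_injective L.subtype L.subtype_injective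
  have h2 := dS_of_dlLe (hk ↥L f hf) h1
  rw [dS_eq_bot_of_inj L.subtype L.subtype_injective, Subgroup.subgroupOf_map_subtype] at h2
  exact h2

theorem comp_dS_Q (h : Comp p S L Q) {k : ℕ} (hk : 2 ≤ k) : dS Q k = ⊥ := by
  obtain ⟨j, rfl⟩ := Nat.exists_eq_add_of_le hk
  rw [dS_add]
  have h1 : dS Q 2 = ⊥ := h.metab
  rw [h1, eq_bot_iff]
  induction j with
  | zero => exact le_rfl
  | succ j ih => exact (dS_anti _ _).trans (ih (by omega))

end core

/-- Derived length at most two for the covers and abelian outer `p`-groups. -/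
theorem tame_two [hp : Fact p.Prime] (hZ : Subgroup.center S = ⊥) (h : CovDl p S 2) (ho : OutAb p S) :
    Tame p S := by
  intro G _ _ L Q hc P
  haveI := comp_normC hc
  have h1 : dS (P : Subgroup G) 1 ≤ L ⊔ Subgroup.centralizer (L : Set G) := by
    have h2 := ho.over (comp_over hZ hc) (P.isPGroup'.map (QuotientGroup.mk' (Subgroup.centralizer (L : Set G))))
    rw [← Subgroup.map_commutator, Subgroup.map_le_iff_le_comap, Subgroup.comap_map_eq,
      QuotientGroup.ker_mk'] at h2
    exact h2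
  have h3 := comp_inf_le hc P (dS_anti _ 0) h1
  rw [derivedSeries_eq_bot_iff, show (3 : ℕ) = 1 + 2 from rfl, dS_add, eq_bot_iff]
  refine (dS_mono h3 2).trans ((dS_sup (fun x hx y hy => comp_comm hc (Subgroup.mem_inf.1 hx).2 hy) 2).trans ?_)
  rw [comp_dS_inf hc h P, comp_dS_Q hc le_rfl, sup_bot_eq]

/-- Derived length at most three for the covers and no outer `p`-elements. -/
theorem tame_three [hp : Fact p.Prime] (hZ : Subgroup.center S = ⊥) (h : CovDl p S 3) (ho : OutPrime p S) :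
    Tame p S := by
  intro G _ _ L Q hc P
  haveI := comp_normC hc
  have h1 : (P : Subgroup G) ≤ L ⊔ Subgroup.centralizer (L : Set G) := by
    have h2 := ho.over (comp_over hZ hc) (P.isPGroup'.map (QuotientGroup.mk' (Subgroup.centralizer (L : Set G))))
    rw [Subgroup.map_le_iff_le_comap, Subgroup.comap_map_eq, QuotientGroup.ker_mk'] at h2
    exact h2
  have h3 := comp_inf_le hc P le_rfl h1
  rw [derivedSeries_eq_bot_iff, eq_bot_iff]
  refine (dS_mono h3 3).trans ((dS_sup (fun x hx y hy => comp_comm hc (Subgroup.mem_inf.1 hx).2 hy) 3).trans ?_)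
  rw [comp_dS_inf hc h P, comp_dS_Q hc (by norm_num), sup_bot_eq]

/-- No covers, and derived length at most three for all groups over `S`. -/
theorem tame_over [hp : Fact p.Prime] (hZ : Subgroup.center S = ⊥) (hn : NoCover p S) (ho : OutAb p S)
    (hd : ∀ (A : Type u) [Group A] [Finite A] (N : Subgroup A), Over S N → DlLe p 3 A) : Tame p S := by
  intro G _ _ L Q hc P
  haveI := comp_normC hc
  have hLQ : L ⊓ Subgroup.centralizer (L : Set G) = ⊥ := by
    obtain ⟨f, hf⟩ := comp_pext hc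
    obtain ⟨f', hf', hk⟩ := hc.iso
    have hcov := hn ↥L f' ⟨hf', ?_, hf.perf, ?_⟩
    · rw [eq_bot_iff]
      rintro x ⟨hx1, hx2⟩
      have h1 : f' ⟨x, hx1⟩ = 1 := (hk ⟨x, hx1⟩).2 (comp_inf_cent hZ hc hx1 hx2)
      have h2 := hcov (h1.trans (map_one f').symm)
      rw [Subgroup.mem_bot]
      exact congrArg Subtype.val h2
    · intro y hy
      rw [Subgroup.mem_center_iff]
      intro z
      exact Subtype.ext (comp_comm hc z.2 ((hk y).1 hy))
    · intro y
      obtain ⟨k, hk'⟩ := hc.pgrp ⟨((y : ↥L) : G), (hk y).1 y.2⟩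
      exact ⟨k, by
        apply Subtype.ext
        apply Subtype.ext
        simpa using congrArg Subtype.val hk'⟩
  have h1 : dS (P : Subgroup G) 1 ≤ L ⊔ Subgroup.centralizer (L : Set G) := by
    have h2 := ho.over (comp_over hZ hc) (P.isPGroup'.map (QuotientGroup.mk' (Subgroup.centralizer (L : Set G))))
    rw [← Subgroup.map_commutator, Subgroup.map_le_iff_le_comap, Subgroup.comap_map_eq,
      QuotientGroup.ker_mk'] at h2
    exact h2
  have h3 := comp_inf_le hc P (dS_anti _ 0) h1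
  have h4 : dS (P : Subgroup G) 3 ≤ L := by
    rw [show (3 : ℕ) = 1 + 2 from rfl, dS_add]
    refine (dS_mono h3 2).trans ((dS_sup (fun x hx y hy => comp_comm hc (Subgroup.mem_inf.1 hx).2 hy) 2).trans ?_)
    rw [comp_dS_Q hc le_rfl, sup_bot_eq]
    exact (dS_anti _ 1).trans ((dS_anti _ 0).trans inf_le_right)
  have h5 : dS (P : Subgroup G) 3 ≤ Subgroup.centralizer (L : Set G) := by
    have h6 := dS_of_dlLe (hd (G ⧸ Subgroup.centralizer (L : Set G)) _ (comp_over hZ hc))
      (P.isPGroup'.map (QuotientGroup.mk' (Subgroup.centralizer (L : Set G))))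
    rw [← dS_map, Subgroup.map_eq_bot_iff, QuotientGroup.ker_mk'] at h6
    exact h6
  rw [derivedSeries_eq_bot_iff, eq_bot_iff, ← hLQ]
  exact le_inf h4 h5

/-- A version with the pieces `P ∩ L`: derived length of `P/(P ∩ L C)` at most `a`, of `P ∩ L` at most `k`. -/
theorem tame_of_dS [hp : Fact p.Prime]
    (h : ∀ (G : Type u) [Group G] [Finite G] (L Q : Subgroup G), Comp p S L Q → ∀ P : Sylow p G,
      ∃ a k : ℕ, 2 ≤ k ∧ a + k = 3 ∧ CovDl p S k ∧
        dS (P : Subgroup G) a ≤ L ⊔ Subgroup.centralizer (L : Set G)) : Tame p S := by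
  intro G _ _ L Q hc P
  obtain ⟨a, k, h2, hak, hcov, ha⟩ := h G L Q hc P
  have hanti : ∀ n, dS (P : Subgroup G) n ≤ (P : Subgroup G) := by
    intro n
    induction n with
    | zero => exact le_rfl
    | succ n ih => exact (dS_anti _ _).trans ih
  have h3 := comp_inf_le hc P (hanti a) ha
  rw [derivedSeries_eq_bot_iff, ← hak, dS_add, eq_bot_iff]
  refine (dS_mono h3 k).trans ((dS_sup (fun x hx y hy => comp_comm hc (Subgroup.mem_inf.1 hx).2 hy) k).trans ?_)
  rw [comp_dS_inf hc hcov P, comp_dS_Q hc h2, sup_bot_eq]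

end Cfsg.Agent.H585.BD
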